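import Cfsg.Agent.H883.BR.Defs

/-!
# HUB BR, A6, A7: the final count (helper815)
-/

set_option autoImplicit false

namespace Cfsg.Agent.H815.BR

open Cfsg.Agent.H883.BR

universe u v w

/-- A2 -/
def StDensConj : Prop := ∀ (m e : ℕ), ∃ C : ℕ, ∀ (K : Type u) [Field K] (F : Subfield K) [Finite F] (G : Type w) [Group G]
    [Finite G] (ι : Type w) (x : ι → F → G) (V : Type u) [AddCommGroup V] [Module K V] [FiniteDimensional K V]
    (R : G →* Module.End K V), Module.finrank K V ≤ m → OneP F x → PolyDeg R F x e →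
    (∃ x0 y0 : G, Subgroup.closure {x0, y0 * x0 * y0⁻¹} = ⊤) →
    Nat.card F * Nat.card {z : G × G // ¬ Dns R (Subgroup.closure {z.1, z.2 * z.1 * z.2⁻¹})} ≤
      C * Nat.card G ^ 2

/-- A3 -/
def StDensFix : Prop := ∀ (m e : ℕ), ∃ C : ℕ, ∀ (K : Type u) [Field K] (F : Subfield K) [Finite F] (G : Type w) [Group G]
    [Finite G] (ι : Type w) (x : ι → F → G) (V : Type u) [AddCommGroup V] [Module K V] [FiniteDimensional K V]
    (R : G →* Module.End K V), Module.finrank K V ≤ m → OneP F x → PolyDeg R F x e →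
    ∀ g : G, (∃ y0 : G, Subgroup.closure {g, y0} = ⊤) →
    Nat.card F * Nat.card {y : G // ¬ Dns R (Subgroup.closure {g, y})} ≤ C * Nat.card G

/-- A4 -/
def StTypPow : Prop := ∀ (m e k : ℕ), ∃ C : ℕ, ∀ (K : Type u) [Field K] (F : Subfield K) [Finite F] (G : Type w) [Group G]
    [Finite G] (ι : Type w) (x : ι → F → G) (V : Type u) [AddCommGroup V] [Module K V] [FiniteDimensional K V]
    (R : G →* Module.End K V), Module.finrank K V ≤ m → OneP F x → PolyDeg R F x e →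
    (∃ g : G, R (g ^ k) ≠ 1) →
    Nat.card F * Nat.card {y : G // R (y ^ k) = 1} ≤ C * Nat.card G

/-- A5 -/
def StTypTr : Prop := ∀ (m e : ℕ), ∃ C : ℕ, ∀ (K : Type u) [Field K] (F : Subfield K) [Finite F] (G : Type w) [Group G]
    [Finite G] (ι : Type w) (x : ι → F → G) (V : Type u) [AddCommGroup V] [Module K V] [FiniteDimensional K V]
    (R : G →* Module.End K V), Module.finrank K V ≤ m → OneP F x → PolyDeg R F x e →
    (∃ g h : G, (LinearMap.trace K V (R g)) ^ Module.finrank K V ≠ (LinearMap.trace K V (R h)) ^ Module.finrank K V) →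
    Nat.sqrt (Nat.card F) * Nat.card {y : G // ¬ TrGen F R y} ≤ C * Nat.card G

/-! ### counting tools -/

theorem card_or {X : Type*} [Finite X] (P Q : X → Prop) :
    Nat.card {x // P x ∨ Q x} ≤ Nat.card {x // P x} + Nat.card {x // Q x} := by
  have h := Set.ncard_union_le {x | P x} {x | Q x}
  exact h

theorem card_mono {X : Type*} [Finite X] {P Q : X → Prop} (h : ∀ x, P x → Q x) :
    Nat.card {x // P x} ≤ Nat.card {x // Q x} :=
  Nat.card_le_card_of_injective (fun x : {x // P x} => (⟨x.1, h _ x.2⟩ : {x // Q x}))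
    (fun _ _ hab => Subtype.ext (congrArg (fun z : {x // Q x} => z.1) hab))

/-- from `s · bad ≤ D · N` to a proportion -/
theorem prop_le {ε : ℝ} {D s bad N : ℕ} (hD : (D : ℝ) ≤ ε * s) (hs : 0 < s) (h : s * bad ≤ D * N) :
    (bad : ℝ) ≤ ε * N := by
  have h1 : (s : ℝ) * bad ≤ D * N := by exact_mod_cast h
  have h2 : (D : ℝ) * N ≤ ε * s * N := mul_le_mul_of_nonneg_right hD (Nat.cast_nonneg N)
  have h3 : (s : ℝ) * bad ≤ s * (ε * N) := by
    calc (s : ℝ) * bad ≤ ε * s * N := h1.trans h2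
      _ = s * (ε * N) := by ring
  exact le_of_mul_le_mul_left h3 (by exact_mod_cast hs)

theorem exists_large (D : ℕ) {ε : ℝ} (hε : 0 < ε) : ∃ Q : ℕ, ∀ q, Q ≤ q → 0 < Nat.sqrt q ∧ (D : ℝ) ≤ ε * Nat.sqrt q := by
  obtain ⟨s, hs⟩ := exists_nat_ge ((D : ℝ) / ε)
  refine ⟨(s + 1) ^ 2, fun q hq => ?_⟩
  have h1 : s + 1 ≤ Nat.sqrt q := by
    rw [Nat.le_sqrt']
    exact hq
  refine ⟨by omega, ?_⟩
  have h2 : (s : ℝ) ≤ Nat.sqrt q := by exact_mod_cast (by omega : s ≤ Nat.sqrt q)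
  rw [div_le_iff₀ hε] at hs
  calc (D : ℝ) ≤ s * ε := hs
    _ = ε * s := mul_comm _ _
    _ ≤ ε * Nat.sqrt q := mul_le_mul_of_nonneg_left h2 hε.le

theorem card_good {X : Type*} [Finite X] (P : X → Prop) {ε : ℝ} {N : ℝ} (hN : (Nat.card X : ℝ) = N)
    (h : (Nat.card {x : X // ¬ P x} : ℝ) ≤ ε * N) : (1 - ε) * N ≤ Nat.card {x : X // P x} := by
  classical
  have h1 : Nat.card {x : X // P x} + Nat.card {x : X // ¬ P x} = Nat.card X := by
    rw [← Nat.card_sum]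
    exact Nat.card_congr (Equiv.sumCompl P)
  have h2 : (Nat.card {x : X // P x} : ℝ) + Nat.card {x : X // ¬ P x} = N := by
    rw [← hN, ← h1]
    push_cast
    ring
  linarith

/-- the bound for the number of atypical elements -/
theorem card_atyp (hP : StTypPow.{u, w}) (hT : StTypTr.{u, w}) (C : ℕ) : ∃ D : ℕ, ∀ (K : Type u) [Field K] (F : Subfield K)
    [Finite F] (G : Type w) [Group G] [Finite G] (ι : Type w) (x : ι → F → G) (V W W' : Type u) [AddCommGroup V]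
    [Module K V] [AddCommGroup W] [Module K W] [AddCommGroup W'] [Module K W'] [FiniteDimensional K V]
    [FiniteDimensional K W] [FiniteDimensional K W'] (R : G →* Module.End K V) (σ : G →* Module.End K W)
    (σ' : G →* Module.End K W'), OneP F x → Module.finrank K V ≤ C → Module.finrank K W ≤ C →
    Module.finrank K W' ≤ C → PolyDeg R F x C → PolyDeg σ F x C → PolyDeg σ' F x C →
    (∃ g h : G, (LinearMap.trace K W (σ g)) ^ Module.finrank K W ≠ (LinearMap.trace K W (σ h)) ^ Module.finrank K W) →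
    (∃ g h : G, (LinearMap.trace K W' (σ' g)) ^ Module.finrank K W' ≠
      (LinearMap.trace K W' (σ' h)) ^ Module.finrank K W') →
    (∀ k, 0 < k → k ≤ C → ∃ g : G, R (g ^ k) ≠ 1) →
    Nat.sqrt (Nat.card F) * Nat.card {y : G // ¬ ((∀ k, 0 < k → k ≤ C → R (y ^ k) ≠ 1) ∧ TrGen F σ y ∧ TrGen F σ' y)} ≤
      D * Nat.card G := by
  choose A hA using fun k => hP C C k
  obtain ⟨B, hB⟩ := hT C C
  refine ⟨(∑ k ∈ Finset.range (C + 1), A k) + (B + B), ?_⟩
  intro K _ F _ G _ _ ι x V W W' _ _ _ _ _ _ _ _ _ R σ σ' hx d1 d2 d3 p1 p2 p3 t1 t2 hk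
  set s := Nat.sqrt (Nat.card F) with hs
  have hsq : s ≤ Nat.card F := Nat.sqrt_le_self _
  have h1 : Nat.card {y : G // ¬ ((∀ k, 0 < k → k ≤ C → R (y ^ k) ≠ 1) ∧ TrGen F σ y ∧ TrGen F σ' y)} ≤
      Nat.card {y : G // (∃ k ∈ Finset.range (C + 1), (0 < k ∧ R (y ^ k) = 1)) ∨ (¬ TrGen F σ y ∨ ¬ TrGen F σ' y)} := by
    refine card_mono ?_
    intro y hy
    by_contra hcon
    push Not at hcon
    obtain ⟨c1, c2, c3⟩ := hcon
    apply hy
    refine ⟨fun k hk0 hkC hk1 => ?_, c2, c3⟩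
    exact c1 k (Finset.mem_range.2 (by omega)) hk0 hk1
  have h2 : ∀ k ∈ Finset.range (C + 1), s * Nat.card {y : G // 0 < k ∧ R (y ^ k) = 1} ≤ A k * Nat.card G := by
    intro k hkC
    rcases Nat.eq_zero_or_pos k with rfl | hk0
    · have : Nat.card {y : G // 0 < 0 ∧ R (y ^ 0) = 1} = 0 := by
        have : IsEmpty {y : G // 0 < 0 ∧ R (y ^ 0) = 1} := ⟨fun y => absurd y.2.1 (lt_irrefl _)⟩
        exact Nat.card_of_isEmpty
      rw [this, mul_zero]
      exact Nat.zero_le _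
    · have h3 := hA k K F G ι x V R d1 hx p1 (hk k hk0 (by have := Finset.mem_range.1 hkC; omega))
      refine le_trans (Nat.mul_le_mul hsq (card_mono fun y hy => hy.2)) h3
  have h3 := hB K F G ι x W σ d2 hx p2 t1
  have h4 := hB K F G ι x W' σ' d3 hx p3 t2
  rw [← hs] at h3 h4
  have h5 : ∀ r : ℕ, r ≤ C + 1 → s * Nat.card {y : G // ∃ k ∈ Finset.range r, (0 < k ∧ R (y ^ k) = 1)} ≤
      (∑ k ∈ Finset.range r, A k) * Nat.card G := by
    intro r
    induction r with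
    | zero =>
      intro _
      have : IsEmpty {y : G // ∃ k ∈ Finset.range 0, (0 < k ∧ R (y ^ k) = 1)} := by
        refine ⟨fun y => ?_⟩
        obtain ⟨k, hk, -⟩ := y.2
        simp at hk
      rw [Nat.card_of_isEmpty, mul_zero]
      exact Nat.zero_le _
    | succ r ih =>
      intro hr
      have h6 : Nat.card {y : G // ∃ k ∈ Finset.range (r + 1), (0 < k ∧ R (y ^ k) = 1)} ≤
          Nat.card {y : G // (∃ k ∈ Finset.range r, (0 < k ∧ R (y ^ k) = 1)) ∨ (0 < r ∧ R (y ^ r) = 1)} := by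
        refine card_mono ?_
        rintro y ⟨k, hk, hy⟩
        rw [Finset.mem_range] at hk
        rcases Nat.lt_succ_iff_lt_or_eq.1 hk with h | rfl
        · exact Or.inl ⟨k, Finset.mem_range.2 h, hy⟩
        · exact Or.inr hy
      rw [Finset.sum_range_succ, add_mul]
      calc s * Nat.card {y : G // ∃ k ∈ Finset.range (r + 1), (0 < k ∧ R (y ^ k) = 1)}
          ≤ s * (Nat.card {y : G // ∃ k ∈ Finset.range r, (0 < k ∧ R (y ^ k) = 1)} +
            Nat.card {y : G // 0 < r ∧ R (y ^ r) = 1}) := Nat.mul_le_mul_left _ (h6.trans (card_or _ _))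
        _ = s * Nat.card {y : G // ∃ k ∈ Finset.range r, (0 < k ∧ R (y ^ k) = 1)} +
            s * Nat.card {y : G // 0 < r ∧ R (y ^ r) = 1} := mul_add _ _ _
        _ ≤ _ := Nat.add_le_add (ih (by omega)) (h2 r (Finset.mem_range.2 (by omega)))
  have h6 := h5 (C + 1) le_rfl
  calc s * _ ≤ s * (Nat.card {y : G // ∃ k ∈ Finset.range (C + 1), (0 < k ∧ R (y ^ k) = 1)} +
        (Nat.card {y : G // ¬ TrGen F σ y} + Nat.card {y : G // ¬ TrGen F σ' y})) :=
        Nat.mul_le_mul_left _ (h1.trans ((card_or _ _).trans (Nat.add_le_add_left (card_or _ _) _)))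
    _ = s * Nat.card {y : G // ∃ k ∈ Finset.range (C + 1), (0 < k ∧ R (y ^ k) = 1)} +
        (s * Nat.card {y : G // ¬ TrGen F σ y} + s * Nat.card {y : G // ¬ TrGen F σ' y}) := by ring
    _ ≤ (∑ k ∈ Finset.range (C + 1), A k) * Nat.card G + (B * Nat.card G + B * Nat.card G) :=
        Nat.add_le_add h6 (Nat.add_le_add h3 h4)
    _ = _ := by ring

/-- A6 -/
theorem row_conj (hD : StDensConj.{u, w}) (hP : StTypPow.{u, w}) (hT : StTypTr.{u, w}) (C : ℕ) (ε : ℝ) (hε : 0 < ε) :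
    ∃ Q : ℕ, ∀ q, Q ≤ q → ∀ (G : Type w) [Group G] [Finite G],
    Row.{u, w} C q G → (∃ x0 y0 : G, Subgroup.closure {x0, y0 * x0 * y0⁻¹} = ⊤) →
    (1 - ε) * (Nat.card G : ℝ) ^ 2 ≤ Nat.card {z : G × G // Subgroup.closure {z.1, z.2 * z.1 * z.2⁻¹} = ⊤} := by
  obtain ⟨A, hA⟩ := hD C C
  obtain ⟨B, hB⟩ := card_atyp hP hT C
  obtain ⟨Q, hQ⟩ := exists_large (A + B) hε
  refine ⟨Q, fun q hq G _ _ hrow h0 => ?_⟩
  obtain ⟨K, _, F, ι, x, V, W, W', _, _, _, _, _, _, R, σ, σ', hF, hFq, hx, f1, f2, f3, d1, d2, d3, p1, p2, p3, t1, t2,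
    hk, hend⟩ := hrow
  obtain ⟨hs0, hsε⟩ := hQ q hq
  have h1 := hA K F G ι x V R d1 hx p1 h0
  have h2 := hB K F G ι x V W W' R σ σ' hx d1 d2 d3 p1 p2 p3 t1 t2 hk
  rw [hFq] at h1 h2
  have hN : (Nat.card (G × G) : ℝ) = (Nat.card G : ℝ) ^ 2 := by
    rw [Nat.card_prod]
    push_cast
    ring
  refine card_good _ hN ?_
  have h3 : Nat.card {z : G × G // ¬ Subgroup.closure {z.1, z.2 * z.1 * z.2⁻¹} = ⊤} ≤
      Nat.card {z : G × G // ¬ Dns R (Subgroup.closure {z.1, z.2 * z.1 * z.2⁻¹})} +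
      Nat.card {y : G // ¬ ((∀ k, 0 < k → k ≤ C → R (y ^ k) ≠ 1) ∧ TrGen F σ y ∧ TrGen F σ' y)} * Nat.card G := by
    have h4 : Nat.card {z : G × G // ¬ Subgroup.closure {z.1, z.2 * z.1 * z.2⁻¹} = ⊤} ≤
        Nat.card {z : G × G // ¬ Dns R (Subgroup.closure {z.1, z.2 * z.1 * z.2⁻¹}) ∨
          ¬ ((∀ k, 0 < k → k ≤ C → R (z.1 ^ k) ≠ 1) ∧ TrGen F σ z.1 ∧ TrGen F σ' z.1)} := by
      refine card_mono ?_
      intro z hz
      by_contra hcon
      push Not at hcon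
      obtain ⟨c1, c2, c3, c4⟩ := hcon
      exact hz (hend _ c1 z.1 (Subgroup.subset_closure (Set.mem_insert _ _)) c2 c3 c4)
    refine h4.trans ((card_or _ _).trans (Nat.add_le_add_left ?_ _))
    have e : {z : G × G // ¬ ((∀ k, 0 < k → k ≤ C → R (z.1 ^ k) ≠ 1) ∧ TrGen F σ z.1 ∧ TrGen F σ' z.1)} ≃
        {y : G // ¬ ((∀ k, 0 < k → k ≤ C → R (y ^ k) ≠ 1) ∧ TrGen F σ y ∧ TrGen F σ' y)} × G :=
      { toFun := fun z => (⟨z.1.1, z.2⟩, z.1.2)
        invFun := fun z => ⟨(z.1.1, z.2), z.1.2⟩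
        left_inv := fun z => rfl
        right_inv := fun z => rfl }
    rw [Nat.card_congr e, Nat.card_prod]
  have hsq : Nat.sqrt q ≤ q := Nat.sqrt_le_self _
  have h5 : Nat.sqrt q * Nat.card {z : G × G // ¬ Subgroup.closure {z.1, z.2 * z.1 * z.2⁻¹} = ⊤} ≤
      (A + B) * Nat.card G ^ 2 := by
    calc _ ≤ Nat.sqrt q * (Nat.card {z : G × G // ¬ Dns R (Subgroup.closure {z.1, z.2 * z.1 * z.2⁻¹})} +
        Nat.card {y : G // ¬ ((∀ k, 0 < k → k ≤ C → R (y ^ k) ≠ 1) ∧ TrGen F σ y ∧ TrGen F σ' y)} * Nat.card G) :=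
          Nat.mul_le_mul_left _ h3
      _ = Nat.sqrt q * Nat.card {z : G × G // ¬ Dns R (Subgroup.closure {z.1, z.2 * z.1 * z.2⁻¹})} +
        (Nat.sqrt q * Nat.card {y : G // ¬ ((∀ k, 0 < k → k ≤ C → R (y ^ k) ≠ 1) ∧ TrGen F σ y ∧ TrGen F σ' y)}) *
          Nat.card G := by ring
      _ ≤ A * Nat.card G ^ 2 + (B * Nat.card G) * Nat.card G :=
          Nat.add_le_add ((Nat.mul_le_mul_right _ hsq).trans h1) (Nat.mul_le_mul_right _ h2)
      _ = _ := by ring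
  have h6 := prop_le (N := Nat.card G ^ 2) (by exact_mod_cast hsε) hs0 h5
  exact_mod_cast h6

/-- A7 -/
theorem row_fix (hD : StDensFix.{u, w}) (hP : StTypPow.{u, w}) (hT : StTypTr.{u, w}) (C : ℕ) (ε : ℝ) (hε : 0 < ε) :
    ∃ Q : ℕ, ∀ q, Q ≤ q → ∀ (G : Type w) [Group G] [Finite G],
    Row.{u, w} C q G → ∀ g : G, (∃ y0 : G, Subgroup.closure {g, y0} = ⊤) →
    (1 - ε) * (Nat.card G : ℝ) ≤ Nat.card {y : G // Subgroup.closure {g, y} = ⊤} := by
  obtain ⟨A, hA⟩ := hD C C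
  obtain ⟨B, hB⟩ := card_atyp hP hT C
  obtain ⟨Q, hQ⟩ := exists_large (A + B) hε
  refine ⟨Q, fun q hq G _ _ hrow g h0 => ?_⟩
  obtain ⟨K, _, F, ι, x, V, W, W', _, _, _, _, _, _, R, σ, σ', hF, hFq, hx, f1, f2, f3, d1, d2, d3, p1, p2, p3, t1, t2,
    hk, hend⟩ := hrow
  obtain ⟨hs0, hsε⟩ := hQ q hq
  have h1 := hA K F G ι x V R d1 hx p1 g h0
  have h2 := hB K F G ι x V W W' R σ σ' hx d1 d2 d3 p1 p2 p3 t1 t2 hk
  rw [hFq] at h1 h2
  refine card_good _ rfl ?_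
  have h3 : Nat.card {y : G // ¬ Subgroup.closure {g, y} = ⊤} ≤
      Nat.card {y : G // ¬ Dns R (Subgroup.closure {g, y})} +
      Nat.card {y : G // ¬ ((∀ k, 0 < k → k ≤ C → R (y ^ k) ≠ 1) ∧ TrGen F σ y ∧ TrGen F σ' y)} := by
    refine le_trans (card_mono ?_) (card_or _ _)
    intro z hz
    by_contra hcon
    push Not at hcon
    obtain ⟨c1, c2, c3, c4⟩ := hcon
    exact hz (hend _ c1 z (Subgroup.subset_closure (Set.mem_insert_of_mem _ rfl)) c2 c3 c4)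
  have hsq : Nat.sqrt q ≤ q := Nat.sqrt_le_self _
  have h5 : Nat.sqrt q * Nat.card {y : G // ¬ Subgroup.closure {g, y} = ⊤} ≤ (A + B) * Nat.card G := by
    calc _ ≤ Nat.sqrt q * (Nat.card {y : G // ¬ Dns R (Subgroup.closure {g, y})} +
        Nat.card {y : G // ¬ ((∀ k, 0 < k → k ≤ C → R (y ^ k) ≠ 1) ∧ TrGen F σ y ∧ TrGen F σ' y)}) :=
          Nat.mul_le_mul_left _ h3
      _ = Nat.sqrt q * Nat.card {y : G // ¬ Dns R (Subgroup.closure {g, y})} +
        Nat.sqrt q * Nat.card {y : G // ¬ ((∀ k, 0 < k → k ≤ C → R (y ^ k) ≠ 1) ∧ TrGen F σ y ∧ TrGen F σ' y)} := by ring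
      _ ≤ A * Nat.card G + B * Nat.card G := Nat.add_le_add ((Nat.mul_le_mul_right _ hsq).trans h1) h2
      _ = _ := by ring
  exact prop_le (by exact_mod_cast hsε) hs0 h5

end Cfsg.Agent.H815.BR
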