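import Cfsg.Agent.H815.BR.Count
import Cfsg.Agent.H424.Spr.Core
import Cfsg.Agent.H262.Rx.Bridge
import Cfsg.Agent.S0205

/-!
# HUB BR, A8: from `Row` to the simple group (helper815)
-/

set_option autoImplicit false

namespace Cfsg.Agent.H815.BR

open Cfsg.Agent.H883.BR Subgroup
open Cfsg.Agent.H262.Rx (missX missC)
open scoped commutatorElement

universe u v w

section tools

variable {G T : Type*} [Group G] [Group T]

/-- generation modulo the centre -/
theorem closure_top_iff (f : G →* T) (hf : Function.Surjective f) (hker : f.ker = center G) (hG : commutator G = ⊤)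
    (s : Set G) : closure s = ⊤ ↔ closure (f '' s) = ⊤ := by
  have hm : closure (f '' s) = (closure s).map f := (MonoidHom.map_closure f s).symm
  constructor
  · intro h
    rw [hm, h]
    exact Subgroup.map_top_of_surjective f hf
  · intro h
    rw [hm] at h
    have key : ∀ g : G, ∃ x ∈ closure s, ∃ z ∈ center G, g = x * z := by
      intro g
      have h1 : f g ∈ (closure s).map f := by
        rw [h]
        exact mem_top _
      obtain ⟨x, hx, hxg⟩ := h1
      refine ⟨x, hx, x⁻¹ * g, ?_, by group⟩
      rw [← hker, MonoidHom.mem_ker, map_mul, map_inv, hxg, inv_mul_cancel]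
    rw [eq_top_iff, ← hG, commutator_def, commutator_le]
    intro g1 _ g2 _
    obtain ⟨x1, hx1, z1, hz1, rfl⟩ := key g1
    obtain ⟨x2, hx2, z2, hz2, rfl⟩ := key g2
    have e : ⁅x1 * z1, x2 * z2⁆ = ⁅x1, x2⁆ := by
      have c1 := fun y => mem_center_iff.1 hz1 y
      have c2 := fun y => mem_center_iff.1 hz2 y
      rw [commutatorElement_def, commutatorElement_def, mul_inv_rev, mul_inv_rev]
      calc x1 * z1 * (x2 * z2) * (z1⁻¹ * x1⁻¹) * (z2⁻¹ * x2⁻¹)
          = x1 * (z1 * (x2 * z2)) * z1⁻¹ * x1⁻¹ * (z2⁻¹ * x2⁻¹) := by group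
        _ = x1 * ((x2 * z2) * z1) * z1⁻¹ * x1⁻¹ * (z2⁻¹ * x2⁻¹) := by rw [c1]
        _ = x1 * x2 * (z2 * x1⁻¹) * z2⁻¹ * x2⁻¹ := by group
        _ = x1 * x2 * (x1⁻¹ * z2) * z2⁻¹ * x2⁻¹ := by rw [c2]
        _ = _ := by group
    rw [e]
    exact mul_mem (mul_mem (mul_mem hx1 hx2) (inv_mem hx1)) (inv_mem hx2)

theorem card_preimage [Finite G] (f : G →* T) (hf : Function.Surjective f) (P : T → Prop) :
    Nat.card {g : G // P (f g)} = Nat.card f.ker * Nat.card {t : T // P t} := by
  have hs : ∀ t, f (Function.surjInv hf t) = t := Function.surjInv_eq hf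
  have e : {g : G // P (f g)} ≃ f.ker × {t : T // P t} := {
    toFun := fun g => (⟨(Function.surjInv hf (f g.1))⁻¹ * g.1, by
      rw [MonoidHom.mem_ker, map_mul, map_inv, hs, inv_mul_cancel]⟩, ⟨f g.1, g.2⟩)
    invFun := fun x => ⟨Function.surjInv hf x.2.1 * x.1.1, by
      rw [map_mul, hs, MonoidHom.mem_ker.1 x.1.2, mul_one]
      exact x.2.2⟩
    left_inv := by
      rintro ⟨g, hg⟩
      apply Subtype.ext
      change Function.surjInv hf (f g) * ((Function.surjInv hf (f g))⁻¹ * g) = g
      group
    right_inv := by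
      rintro ⟨⟨k, hk⟩, ⟨t, ht⟩⟩
      have h1 : f (Function.surjInv hf t * k) = t := by rw [map_mul, hs, MonoidHom.mem_ker.1 hk, mul_one]
      apply Prod.ext
      · apply Subtype.ext
        change (Function.surjInv hf (f (Function.surjInv hf t * k)))⁻¹ * (Function.surjInv hf t * k) = k
        rw [h1]
        group
      · exact Subtype.ext h1 }
  rw [Nat.card_congr e, Nat.card_prod]

end tools

/-- A8 -/
theorem miss_of_row (hDc : StDensConj.{0, 0}) (hDf : StDensFix.{0, 0}) (hP : StTypPow.{0, 0}) (hT : StTypTr.{0, 0})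
    (C : ℕ) (ε : ℝ) (hε : 0 < ε) :
    ∃ Q : ℕ, ∀ q, Q ≤ q → ∀ (G T : Type) [Group G] [Group T] [Finite G] [Finite T] [IsSimpleGroup T] (f : G →* T),
      Function.Surjective f → f.ker = center G → QS G → Row.{0, 0} C q G → H424.Spr.Spr T →
      (∀ x : T, x ≠ 1 → (missX T x : ℝ) ≤ ε * Nat.card T) ∧ (missC T : ℝ) ≤ ε * (Nat.card T : ℝ) ^ 2 := by
  obtain ⟨Q1, h1⟩ := row_conj hDc hP hT C ε hε
  obtain ⟨Q2, h2⟩ := row_fix hDf hP hT C ε hε
  refine ⟨max Q1 Q2, fun q hq G T _ _ _ _ _ f hf hker hG hrow hS => ?_⟩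
  have hZ : 0 < Nat.card f.ker := Nat.card_pos
  have hZ' : (0 : ℝ) < Nat.card f.ker := by exact_mod_cast hZ
  have hcard : Nat.card G = Nat.card f.ker * Nat.card T := by
    have h := card_preimage f hf (fun _ => True)
    have e1 : Nat.card {g : G // True} = Nat.card G := Nat.card_congr (Equiv.subtypeUnivEquiv fun _ => trivial)
    have e2 : Nat.card {g : T // True} = Nat.card T := Nat.card_congr (Equiv.subtypeUnivEquiv fun _ => trivial)
    rwa [e1, e2] at h
  -- `T` is not commutative
  have hnc : ¬ ∀ a b : T, a * b = b * a := by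
    intro hab
    obtain ⟨t, ht⟩ := exists_ne (1 : T)
    have hcomm : ∀ g : G, f g = 1 := by
      intro g
      have hg : g ∈ commutator G := by
        rw [hG.perf]
        exact mem_top g
      have hle : commutator G ≤ f.ker := by
        rw [commutator_def, commutator_le]
        intro a _ b _
        rw [MonoidHom.mem_ker, commutatorElement_def, map_mul, map_mul, map_mul, map_inv, map_inv, hab (f a) (f b)]
        group
      exact hle hg
    obtain ⟨g, hg⟩ := hf t
    exact ht (hg.symm.trans (hcomm g))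
  have hcen : ∀ x : T, x ≠ 1 → (MulAut.conj x : MulAut T) ≠ 1 := by
    intro x hx h
    have hxc : x ∈ center T := by
      rw [mem_center_iff]
      intro y
      have h3 := congrArg (fun a : MulAut T => a y) h
      simp only [MulAut.conj_apply, MulAut.one_apply] at h3
      rw [mul_inv_eq_iff_eq_mul] at h3
      exact h3.symm
    rcases (inferInstance : (center T).Normal).eq_bot_or_eq_top with h4 | h4
    · rw [h4, mem_bot] at hxc
      exact hx hxc
    · apply hnc
      intro a b
      have : b ∈ center T := by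
        rw [h4]
        exact mem_top b
      exact (mem_center_iff.1 this a)
  -- the fixed element
  constructor
  · intro x hx
    obtain ⟨y, hy⟩ := hS (MulAut.conj x) (hcen x hx)
    obtain ⟨g, rfl⟩ := hf x
    obtain ⟨y', rfl⟩ := hf y
    have hgen : closure {g, y'} = ⊤ := by
      rw [closure_top_iff f hf hker hG.perf, Set.image_pair]
      apply hy
      · exact subset_closure (Set.mem_insert_of_mem _ rfl)
      · intro k hk
        have hgx : f g ∈ closure {f g, f y'} := subset_closure (Set.mem_insert _ _)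
        exact mul_mem (mul_mem hgx hk) (inv_mem hgx)
    have h3 := h2 q ((le_max_right _ _).trans hq) G hrow g ⟨y', hgen⟩
    rw [H262.Rx.card_not] at h3
    have h4 : Nat.card {y : G // ¬ closure {g, y} = ⊤} = Nat.card f.ker * missX T (f g) := by
      rw [missX, ← card_preimage f hf (fun y => closure {f g, y} ≠ ⊤)]
      refine Nat.card_congr (Equiv.subtypeEquivRight fun y => ?_)
      rw [closure_top_iff f hf hker hG.perf, Set.image_pair]
    rw [h4, hcard] at h3
    push_cast at h3
    have h5 : (Nat.card f.ker : ℝ) * missX T (f g) ≤ Nat.card f.ker * (ε * Nat.card T) := by nlinarith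
    exact le_of_mul_le_mul_left h5 hZ'
  · -- the conjugate pair
    have h2T : 2 ∣ Nat.card T := by
      by_contra hodd
      have hs := Cfsg.Agent.S0205.result (G := T) (Nat.not_even_iff_odd.1 fun h => hodd h.two_dvd)
      exact hnc (IsSimpleGroup.comm_iff_isSolvable.2 hs)
    obtain ⟨t, ht⟩ := exists_prime_orderOf_dvd_card' 2 h2T
    have ht1 : t ≠ 1 := by
      rintro rfl
      rw [orderOf_one] at ht
      omega
    have htt : t * t = 1 := by
      rw [← pow_two, ← ht, pow_orderOf_eq_one]
    obtain ⟨y, hy⟩ := hS (MulAut.conj t) (hcen t ht1)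
    have hK : closure {y, t * y * t⁻¹} = ⊤ := by
      apply hy
      · exact subset_closure (Set.mem_insert _ _)
      · intro k hk
        have h3 : closure {y, t * y * t⁻¹} ≤ (closure {y, t * y * t⁻¹}).comap (MulAut.conj t).toMonoidHom := by
          rw [closure_le]
          rintro z (rfl | rfl)
          · exact subset_closure (Set.mem_insert_of_mem _ rfl)
          · change t * (t * y * t⁻¹) * t⁻¹ ∈ closure {y, t * y * t⁻¹}
            have e : t * (t * y * t⁻¹) * t⁻¹ = y := by
              have ti : t⁻¹ = t := inv_eq_of_mul_eq_one_left htt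
              rw [ti]
              calc t * (t * y * t) * t = (t * t) * y * (t * t) := by group
                _ = y := by rw [htt]; group
            rw [e]
            exact subset_closure (Set.mem_insert _ _)
        exact h3 hk
    obtain ⟨x0, rfl⟩ := hf y
    obtain ⟨y0, rfl⟩ := hf t
    have hgen : closure {x0, y0 * x0 * y0⁻¹} = ⊤ := by
      rw [closure_top_iff f hf hker hG.perf, Set.image_pair, map_mul, map_mul, map_inv]
      exact hK
    have h3 := h1 q ((le_max_left _ _).trans hq) G hrow ⟨x0, y0, hgen⟩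
    rw [H262.Rx.card_not, Nat.card_prod] at h3
    let F : G × G →* T × T := f.prodMap f
    have hF : Function.Surjective F := hf.prodMap hf
    have hFk : Nat.card F.ker = Nat.card f.ker ^ 2 := by
      have e : F.ker ≃ f.ker × f.ker := {
        toFun := fun x => (⟨x.1.1, congrArg Prod.fst (MonoidHom.mem_ker.1 x.2)⟩, ⟨x.1.2, congrArg Prod.snd (MonoidHom.mem_ker.1 x.2)⟩)
        invFun := fun x => ⟨(x.1.1, x.2.1), MonoidHom.mem_ker.2 (Prod.ext (MonoidHom.mem_ker.1 x.1.2) (MonoidHom.mem_ker.1 x.2.2))⟩
        left_inv := fun _ => rfl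
        right_inv := fun _ => rfl }
      rw [Nat.card_congr e, Nat.card_prod, pow_two]
    have h4 : Nat.card {z : G × G // ¬ closure {z.1, z.2 * z.1 * z.2⁻¹} = ⊤} = Nat.card f.ker ^ 2 * missC T := by
      rw [missC, ← hFk, ← card_preimage F hF (fun p => closure {p.1, p.2 * p.1 * p.2⁻¹} ≠ ⊤)]
      refine Nat.card_congr (Equiv.subtypeEquivRight fun z => ?_)
      rw [closure_top_iff f hf hker hG.perf, Set.image_pair, map_mul, map_mul, map_inv]
      rfl
    rw [h4, hcard] at h3
    push_cast at h3
    have h5 : (Nat.card f.ker : ℝ) ^ 2 * missC T ≤ (Nat.card f.ker : ℝ) ^ 2 * (ε * (Nat.card T : ℝ) ^ 2) := by nlinarith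
    exact le_of_mul_le_mul_left h5 (by positivity)

end Cfsg.Agent.H815.BR
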