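import Cfsg.Agent.H815.BR.Miss

/-!
# HUB BR: `Row` with an exceptional set (helper815)

`Row2 C q G` is `Row C q G` with an exceptional set `E` of size at most `C |G| / sqrt q`; the last clause is required for
`y ∉ E` only. The conclusions of `row_conj`, `row_fix` and `miss_of_row` hold for it.
-/

set_option autoImplicit false

namespace Cfsg.Agent.H815.BR

open Cfsg.Agent.H883.BR

universe u v w

/-- everything the counting needs, with an exceptional set -/
def Row2 (C q : ℕ) (G : Type w) [Group G] : Prop :=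
  ∃ (K : Type u) (_ : Field K) (F : Subfield K) (ι : Type w) (x : ι → F → G)
    (V W W' : Type u) (_ : AddCommGroup V) (_ : Module K V) (_ : AddCommGroup W) (_ : Module K W)
    (_ : AddCommGroup W') (_ : Module K W')
    (R : G →* Module.End K V) (σ : G →* Module.End K W) (σ' : G →* Module.End K W') (E : Set G),
    Finite F ∧ Nat.card F = q ∧ OneP F x ∧
    FiniteDimensional K V ∧ FiniteDimensional K W ∧ FiniteDimensional K W' ∧
    Module.finrank K V ≤ C ∧ Module.finrank K W ≤ C ∧ Module.finrank K W' ≤ C ∧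
    PolyDeg R F x C ∧ PolyDeg σ F x C ∧ PolyDeg σ' F x C ∧
    (∃ g h : G, (LinearMap.trace K W (σ g)) ^ Module.finrank K W ≠ (LinearMap.trace K W (σ h)) ^ Module.finrank K W) ∧
    (∃ g h : G, (LinearMap.trace K W' (σ' g)) ^ Module.finrank K W' ≠
      (LinearMap.trace K W' (σ' h)) ^ Module.finrank K W') ∧
    (∀ k, 0 < k → k ≤ C → ∃ g : G, R (g ^ k) ≠ 1) ∧
    Nat.sqrt q * Nat.card {y : G // y ∈ E} ≤ C * Nat.card G ∧
    ∀ H : Subgroup G, Dns R H → ∀ y ∈ H, y ∉ E → (∀ k, 0 < k → k ≤ C → R (y ^ k) ≠ 1) → TrGen F σ y → TrGen F σ' y →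
      H = ⊤

theorem Row2.of_row {C q : ℕ} {G : Type w} [Group G] (h : Row.{u, w} C q G) : Row2.{u, w} C q G := by
  obtain ⟨K, iK, F, ι, x, V, W, W', i1, i2, i3, i4, i5, i6, R, σ, σ', hF, hFq, hx, f1, f2, f3, d1, d2, d3, p1, p2, p3,
    t1, t2, hk, hend⟩ := h
  refine ⟨K, iK, F, ι, x, V, W, W', i1, i2, i3, i4, i5, i6, R, σ, σ', ∅, hF, hFq, hx, f1, f2, f3, d1, d2, d3, p1, p2, p3,
    t1, t2, hk, ?_, fun H hH y hy _ => hend H hH y hy⟩
  have : IsEmpty {y : G // y ∈ (∅ : Set G)} := ⟨fun y => y.2⟩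
  rw [Nat.card_of_isEmpty, mul_zero]
  exact Nat.zero_le _

/-- A6 with an exceptional set -/
theorem row2_conj (hD : StDensConj.{u, w}) (hP : StTypPow.{u, w}) (hT : StTypTr.{u, w}) (C : ℕ) (ε : ℝ) (hε : 0 < ε) :
    ∃ Q : ℕ, ∀ q, Q ≤ q → ∀ (G : Type w) [Group G] [Finite G],
    Row2.{u, w} C q G → (∃ x0 y0 : G, Subgroup.closure {x0, y0 * x0 * y0⁻¹} = ⊤) →
    (1 - ε) * (Nat.card G : ℝ) ^ 2 ≤ Nat.card {z : G × G // Subgroup.closure {z.1, z.2 * z.1 * z.2⁻¹} = ⊤} := by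
  obtain ⟨A, hA⟩ := hD C C
  obtain ⟨B, hB⟩ := card_atyp hP hT C
  obtain ⟨Q, hQ⟩ := exists_large (A + (B + C)) hε
  refine ⟨Q, fun q hq G _ _ hrow h0 => ?_⟩
  obtain ⟨K, _, F, ι, x, V, W, W', _, _, _, _, _, _, R, σ, σ', E, hF, hFq, hx, f1, f2, f3, d1, d2, d3, p1, p2, p3, t1, t2,
    hk, hE, hend⟩ := hrow
  obtain ⟨hs0, hsε⟩ := hQ q hq
  have h1 := hA K F G ι x V R d1 hx p1 h0
  have h2' := hB K F G ι x V W W' R σ σ' hx d1 d2 d3 p1 p2 p3 t1 t2 hk
  rw [hFq] at h1 h2'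
  have h2 : Nat.sqrt q * Nat.card {y : G // ¬ ((∀ k, 0 < k → k ≤ C → R (y ^ k) ≠ 1) ∧ TrGen F σ y ∧ TrGen F σ' y ∧ y ∉ E)} ≤
      (B + C) * Nat.card G := by
    have h3 : Nat.card {y : G // ¬ ((∀ k, 0 < k → k ≤ C → R (y ^ k) ≠ 1) ∧ TrGen F σ y ∧ TrGen F σ' y ∧ y ∉ E)} ≤
        Nat.card {y : G // ¬ ((∀ k, 0 < k → k ≤ C → R (y ^ k) ≠ 1) ∧ TrGen F σ y ∧ TrGen F σ' y)} +
        Nat.card {y : G // y ∈ E} := by
      refine le_trans (card_mono ?_) (card_or _ _)
      intro y hy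
      by_contra hcon
      push Not at hcon
      obtain ⟨⟨c1, c2, c3⟩, c4⟩ := hcon
      exact hy ⟨c1, c2, c3, c4⟩
    calc _ ≤ Nat.sqrt q * (Nat.card {y : G // ¬ ((∀ k, 0 < k → k ≤ C → R (y ^ k) ≠ 1) ∧ TrGen F σ y ∧ TrGen F σ' y)} +
        Nat.card {y : G // y ∈ E}) := Nat.mul_le_mul_left _ h3
      _ = Nat.sqrt q * Nat.card {y : G // ¬ ((∀ k, 0 < k → k ≤ C → R (y ^ k) ≠ 1) ∧ TrGen F σ y ∧ TrGen F σ' y)} +
        Nat.sqrt q * Nat.card {y : G // y ∈ E} := by ring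
      _ ≤ B * Nat.card G + C * Nat.card G := Nat.add_le_add h2' hE
      _ = _ := by ring
  have hN : (Nat.card (G × G) : ℝ) = (Nat.card G : ℝ) ^ 2 := by
    rw [Nat.card_prod]
    push_cast
    ring
  refine card_good _ hN ?_
  have h3 : Nat.card {z : G × G // ¬ Subgroup.closure {z.1, z.2 * z.1 * z.2⁻¹} = ⊤} ≤
      Nat.card {z : G × G // ¬ Dns R (Subgroup.closure {z.1, z.2 * z.1 * z.2⁻¹})} +
      Nat.card {y : G // ¬ ((∀ k, 0 < k → k ≤ C → R (y ^ k) ≠ 1) ∧ TrGen F σ y ∧ TrGen F σ' y ∧ y ∉ E)} * Nat.card G := by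
    have h4 : Nat.card {z : G × G // ¬ Subgroup.closure {z.1, z.2 * z.1 * z.2⁻¹} = ⊤} ≤
        Nat.card {z : G × G // ¬ Dns R (Subgroup.closure {z.1, z.2 * z.1 * z.2⁻¹}) ∨
          ¬ ((∀ k, 0 < k → k ≤ C → R (z.1 ^ k) ≠ 1) ∧ TrGen F σ z.1 ∧ TrGen F σ' z.1 ∧ z.1 ∉ E)} := by
      refine card_mono ?_
      intro z hz
      by_contra hcon
      push Not at hcon
      obtain ⟨c1, c2, c3, c4, c5⟩ := hcon
      exact hz (hend _ c1 z.1 (Subgroup.subset_closure (Set.mem_insert _ _)) c5 c2 c3 c4)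
    refine h4.trans ((card_or _ _).trans (Nat.add_le_add_left ?_ _))
    have e : {z : G × G // ¬ ((∀ k, 0 < k → k ≤ C → R (z.1 ^ k) ≠ 1) ∧ TrGen F σ z.1 ∧ TrGen F σ' z.1 ∧ z.1 ∉ E)} ≃
        {y : G // ¬ ((∀ k, 0 < k → k ≤ C → R (y ^ k) ≠ 1) ∧ TrGen F σ y ∧ TrGen F σ' y ∧ y ∉ E)} × G :=
      { toFun := fun z => (⟨z.1.1, z.2⟩, z.1.2)
        invFun := fun z => ⟨(z.1.1, z.2), z.1.2⟩
        left_inv := fun z => rfl
        right_inv := fun z => rfl }
    rw [Nat.card_congr e, Nat.card_prod]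
  have hsq : Nat.sqrt q ≤ q := Nat.sqrt_le_self _
  have h5 : Nat.sqrt q * Nat.card {z : G × G // ¬ Subgroup.closure {z.1, z.2 * z.1 * z.2⁻¹} = ⊤} ≤
      (A + (B + C)) * Nat.card G ^ 2 := by
    calc _ ≤ Nat.sqrt q * (Nat.card {z : G × G // ¬ Dns R (Subgroup.closure {z.1, z.2 * z.1 * z.2⁻¹})} +
        Nat.card {y : G // ¬ ((∀ k, 0 < k → k ≤ C → R (y ^ k) ≠ 1) ∧ TrGen F σ y ∧ TrGen F σ' y ∧ y ∉ E)} * Nat.card G) :=
          Nat.mul_le_mul_left _ h3
      _ = Nat.sqrt q * Nat.card {z : G × G // ¬ Dns R (Subgroup.closure {z.1, z.2 * z.1 * z.2⁻¹})} +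
        (Nat.sqrt q * Nat.card {y : G // ¬ ((∀ k, 0 < k → k ≤ C → R (y ^ k) ≠ 1) ∧ TrGen F σ y ∧ TrGen F σ' y ∧ y ∉ E)}) *
          Nat.card G := by ring
      _ ≤ A * Nat.card G ^ 2 + ((B + C) * Nat.card G) * Nat.card G :=
          Nat.add_le_add ((Nat.mul_le_mul_right _ hsq).trans h1) (Nat.mul_le_mul_right _ h2)
      _ = _ := by ring
  have h6 := prop_le (N := Nat.card G ^ 2) (by exact_mod_cast hsε) hs0 h5
  exact_mod_cast h6

/-- A7 with an exceptional set -/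
theorem row2_fix (hD : StDensFix.{u, w}) (hP : StTypPow.{u, w}) (hT : StTypTr.{u, w}) (C : ℕ) (ε : ℝ) (hε : 0 < ε) :
    ∃ Q : ℕ, ∀ q, Q ≤ q → ∀ (G : Type w) [Group G] [Finite G],
    Row2.{u, w} C q G → ∀ g : G, (∃ y0 : G, Subgroup.closure {g, y0} = ⊤) →
    (1 - ε) * (Nat.card G : ℝ) ≤ Nat.card {y : G // Subgroup.closure {g, y} = ⊤} := by
  obtain ⟨A, hA⟩ := hD C C
  obtain ⟨B, hB⟩ := card_atyp hP hT C
  obtain ⟨Q, hQ⟩ := exists_large (A + (B + C)) hε
  refine ⟨Q, fun q hq G _ _ hrow g h0 => ?_⟩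
  obtain ⟨K, _, F, ι, x, V, W, W', _, _, _, _, _, _, R, σ, σ', E, hF, hFq, hx, f1, f2, f3, d1, d2, d3, p1, p2, p3, t1, t2,
    hk, hE, hend⟩ := hrow
  obtain ⟨hs0, hsε⟩ := hQ q hq
  have h1 := hA K F G ι x V R d1 hx p1 g h0
  have h2' := hB K F G ι x V W W' R σ σ' hx d1 d2 d3 p1 p2 p3 t1 t2 hk
  rw [hFq] at h1 h2'
  have h2 : Nat.sqrt q * Nat.card {y : G // ¬ ((∀ k, 0 < k → k ≤ C → R (y ^ k) ≠ 1) ∧ TrGen F σ y ∧ TrGen F σ' y ∧ y ∉ E)} ≤
      (B + C) * Nat.card G := by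
    have h3 : Nat.card {y : G // ¬ ((∀ k, 0 < k → k ≤ C → R (y ^ k) ≠ 1) ∧ TrGen F σ y ∧ TrGen F σ' y ∧ y ∉ E)} ≤
        Nat.card {y : G // ¬ ((∀ k, 0 < k → k ≤ C → R (y ^ k) ≠ 1) ∧ TrGen F σ y ∧ TrGen F σ' y)} +
        Nat.card {y : G // y ∈ E} := by
      refine le_trans (card_mono ?_) (card_or _ _)
      intro y hy
      by_contra hcon
      push Not at hcon
      obtain ⟨⟨c1, c2, c3⟩, c4⟩ := hcon
      exact hy ⟨c1, c2, c3, c4⟩
    calc _ ≤ Nat.sqrt q * (Nat.card {y : G // ¬ ((∀ k, 0 < k → k ≤ C → R (y ^ k) ≠ 1) ∧ TrGen F σ y ∧ TrGen F σ' y)} +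
        Nat.card {y : G // y ∈ E}) := Nat.mul_le_mul_left _ h3
      _ = Nat.sqrt q * Nat.card {y : G // ¬ ((∀ k, 0 < k → k ≤ C → R (y ^ k) ≠ 1) ∧ TrGen F σ y ∧ TrGen F σ' y)} +
        Nat.sqrt q * Nat.card {y : G // y ∈ E} := by ring
      _ ≤ B * Nat.card G + C * Nat.card G := Nat.add_le_add h2' hE
      _ = _ := by ring
  refine card_good _ rfl ?_
  have h3 : Nat.card {y : G // ¬ Subgroup.closure {g, y} = ⊤} ≤
      Nat.card {y : G // ¬ Dns R (Subgroup.closure {g, y})} +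
      Nat.card {y : G // ¬ ((∀ k, 0 < k → k ≤ C → R (y ^ k) ≠ 1) ∧ TrGen F σ y ∧ TrGen F σ' y ∧ y ∉ E)} := by
    refine le_trans (card_mono ?_) (card_or _ _)
    intro z hz
    by_contra hcon
    push Not at hcon
    obtain ⟨c1, c2, c3, c4, c5⟩ := hcon
    exact hz (hend _ c1 z (Subgroup.subset_closure (Set.mem_insert_of_mem _ rfl)) c5 c2 c3 c4)
  have hsq : Nat.sqrt q ≤ q := Nat.sqrt_le_self _
  have h5 : Nat.sqrt q * Nat.card {y : G // ¬ Subgroup.closure {g, y} = ⊤} ≤ (A + (B + C)) * Nat.card G := by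
    calc _ ≤ Nat.sqrt q * (Nat.card {y : G // ¬ Dns R (Subgroup.closure {g, y})} +
        Nat.card {y : G // ¬ ((∀ k, 0 < k → k ≤ C → R (y ^ k) ≠ 1) ∧ TrGen F σ y ∧ TrGen F σ' y ∧ y ∉ E)}) :=
          Nat.mul_le_mul_left _ h3
      _ = Nat.sqrt q * Nat.card {y : G // ¬ Dns R (Subgroup.closure {g, y})} +
        Nat.sqrt q * Nat.card {y : G // ¬ ((∀ k, 0 < k → k ≤ C → R (y ^ k) ≠ 1) ∧ TrGen F σ y ∧ TrGen F σ' y ∧ y ∉ E)} := by ring
      _ ≤ A * Nat.card G + (B + C) * Nat.card G := Nat.add_le_add ((Nat.mul_le_mul_right _ hsq).trans h1) h2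
      _ = _ := by ring
  exact prop_le (by exact_mod_cast hsε) hs0 h5

section miss

open Subgroup
open Cfsg.Agent.H262.Rx (missX missC)
open scoped commutatorElement

/-- A8 for one group -/
theorem miss_core {ε : ℝ} {G T : Type} [Group G] [Group T] [Finite G] [Finite T] [IsSimpleGroup T] (f : G →* T)
    (hf : Function.Surjective f) (hker : f.ker = center G) (hG : QS G)
    (h1 : (∃ x0 y0 : G, Subgroup.closure {x0, y0 * x0 * y0⁻¹} = ⊤) →
      (1 - ε) * (Nat.card G : ℝ) ^ 2 ≤ Nat.card {z : G × G // Subgroup.closure {z.1, z.2 * z.1 * z.2⁻¹} = ⊤})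
    (h2 : ∀ g : G, (∃ y0 : G, Subgroup.closure {g, y0} = ⊤) →
      (1 - ε) * (Nat.card G : ℝ) ≤ Nat.card {y : G // Subgroup.closure {g, y} = ⊤})
    (hS : H424.Spr.Spr T) :
    (∀ x : T, x ≠ 1 → (missX T x : ℝ) ≤ ε * Nat.card T) ∧ (missC T : ℝ) ≤ ε * (Nat.card T : ℝ) ^ 2 := by
  have hZ : 0 < Nat.card f.ker := Nat.card_pos
  have hZ' : (0 : ℝ) < Nat.card f.ker := by exact_mod_cast hZ
  have hcard : Nat.card G = Nat.card f.ker * Nat.card T := by
    have h := card_preimage f hf (fun _ => True)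
    have e1 : Nat.card {g : G // True} = Nat.card G := Nat.card_congr (Equiv.subtypeUnivEquiv fun _ => trivial)
    have e2 : Nat.card {g : T // True} = Nat.card T := Nat.card_congr (Equiv.subtypeUnivEquiv fun _ => trivial)
    rwa [e1, e2] at h
  -- `T` is not commutative
  have hnc : ¬ ∀ a b : T, a * b = b * a := by
    intro hab
    obtain ⟨t, ht⟩ := exists_ne (1 : T)
    have hcomm : ∀ g : G, f g = 1 := by
      intro g
      have hg : g ∈ commutator G := by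
        rw [hG.perf]
        exact mem_top g
      have hle : commutator G ≤ f.ker := by
        rw [commutator_def, commutator_le]
        intro a _ b _
        rw [MonoidHom.mem_ker, commutatorElement_def, map_mul, map_mul, map_mul, map_inv, map_inv, hab (f a) (f b)]
        group
      exact hle hg
    obtain ⟨g, hg⟩ := hf t
    exact ht (hg.symm.trans (hcomm g))
  have hcen : ∀ x : T, x ≠ 1 → (MulAut.conj x : MulAut T) ≠ 1 := by
    intro x hx h
    have hxc : x ∈ center T := by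
      rw [mem_center_iff]
      intro y
      have h3 := congrArg (fun a : MulAut T => a y) h
      simp only [MulAut.conj_apply, MulAut.one_apply] at h3
      rw [mul_inv_eq_iff_eq_mul] at h3
      exact h3.symm
    rcases (inferInstance : (center T).Normal).eq_bot_or_eq_top with h4 | h4
    · rw [h4, mem_bot] at hxc
      exact hx hxc
    · apply hnc
      intro a b
      have : b ∈ center T := by
        rw [h4]
        exact mem_top b
      exact (mem_center_iff.1 this a)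
  -- the fixed element
  constructor
  · intro x hx
    obtain ⟨y, hy⟩ := hS (MulAut.conj x) (hcen x hx)
    obtain ⟨g, rfl⟩ := hf x
    obtain ⟨y', rfl⟩ := hf y
    have hgen : closure {g, y'} = ⊤ := by
      rw [closure_top_iff f hf hker hG.perf, Set.image_pair]
      apply hy
      · exact subset_closure (Set.mem_insert_of_mem _ rfl)
      · intro k hk
        have hgx : f g ∈ closure {f g, f y'} := subset_closure (Set.mem_insert _ _)
        exact mul_mem (mul_mem hgx hk) (inv_mem hgx)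
    have h3 := h2 g ⟨y', hgen⟩
    rw [H262.Rx.card_not] at h3
    have h4 : Nat.card {y : G // ¬ closure {g, y} = ⊤} = Nat.card f.ker * missX T (f g) := by
      rw [missX, ← card_preimage f hf (fun y => closure {f g, y} ≠ ⊤)]
      refine Nat.card_congr (Equiv.subtypeEquivRight fun y => ?_)
      rw [closure_top_iff f hf hker hG.perf, Set.image_pair]
    rw [h4, hcard] at h3
    push_cast at h3
    have h5 : (Nat.card f.ker : ℝ) * missX T (f g) ≤ Nat.card f.ker * (ε * Nat.card T) := by nlinarith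
    exact le_of_mul_le_mul_left h5 hZ'
  · -- the conjugate pair
    have h2T : 2 ∣ Nat.card T := by
      by_contra hodd
      have hs := Cfsg.Agent.S0205.result (G := T) (Nat.not_even_iff_odd.1 fun h => hodd h.two_dvd)
      exact hnc (IsSimpleGroup.comm_iff_isSolvable.2 hs)
    obtain ⟨t, ht⟩ := exists_prime_orderOf_dvd_card' 2 h2T
    have ht1 : t ≠ 1 := by
      rintro rfl
      rw [orderOf_one] at ht
      omega
    have htt : t * t = 1 := by
      rw [← pow_two, ← ht, pow_orderOf_eq_one]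
    obtain ⟨y, hy⟩ := hS (MulAut.conj t) (hcen t ht1)
    have hK : closure {y, t * y * t⁻¹} = ⊤ := by
      apply hy
      · exact subset_closure (Set.mem_insert _ _)
      · intro k hk
        have h3 : closure {y, t * y * t⁻¹} ≤ (closure {y, t * y * t⁻¹}).comap (MulAut.conj t).toMonoidHom := by
          rw [closure_le]
          rintro z (rfl | rfl)
          · exact subset_closure (Set.mem_insert_of_mem _ rfl)
          · change t * (t * y * t⁻¹) * t⁻¹ ∈ closure {y, t * y * t⁻¹}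
            have e : t * (t * y * t⁻¹) * t⁻¹ = y := by
              have ti : t⁻¹ = t := inv_eq_of_mul_eq_one_left htt
              rw [ti]
              calc t * (t * y * t) * t = (t * t) * y * (t * t) := by group
                _ = y := by rw [htt]; group
            rw [e]
            exact subset_closure (Set.mem_insert _ _)
        exact h3 hk
    obtain ⟨x0, rfl⟩ := hf y
    obtain ⟨y0, rfl⟩ := hf t
    have hgen : closure {x0, y0 * x0 * y0⁻¹} = ⊤ := by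
      rw [closure_top_iff f hf hker hG.perf, Set.image_pair, map_mul, map_mul, map_inv]
      exact hK
    have h3 := h1 ⟨x0, y0, hgen⟩
    rw [H262.Rx.card_not, Nat.card_prod] at h3
    let F : G × G →* T × T := f.prodMap f
    have hF : Function.Surjective F := hf.prodMap hf
    have hFk : Nat.card F.ker = Nat.card f.ker ^ 2 := by
      have e : F.ker ≃ f.ker × f.ker := {
        toFun := fun x => (⟨x.1.1, congrArg Prod.fst (MonoidHom.mem_ker.1 x.2)⟩, ⟨x.1.2, congrArg Prod.snd (MonoidHom.mem_ker.1 x.2)⟩)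
        invFun := fun x => ⟨(x.1.1, x.2.1), MonoidHom.mem_ker.2 (Prod.ext (MonoidHom.mem_ker.1 x.1.2) (MonoidHom.mem_ker.1 x.2.2))⟩
        left_inv := fun _ => rfl
        right_inv := fun _ => rfl }
      rw [Nat.card_congr e, Nat.card_prod, pow_two]
    have h4 : Nat.card {z : G × G // ¬ closure {z.1, z.2 * z.1 * z.2⁻¹} = ⊤} = Nat.card f.ker ^ 2 * missC T := by
      rw [missC, ← hFk, ← card_preimage F hF (fun p => closure {p.1, p.2 * p.1 * p.2⁻¹} ≠ ⊤)]
      refine Nat.card_congr (Equiv.subtypeEquivRight fun z => ?_)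
      rw [closure_top_iff f hf hker hG.perf, Set.image_pair, map_mul, map_mul, map_inv]
      rfl
    rw [h4, hcard] at h3
    push_cast at h3
    have h5 : (Nat.card f.ker : ℝ) ^ 2 * missC T ≤ (Nat.card f.ker : ℝ) ^ 2 * (ε * (Nat.card T : ℝ) ^ 2) := by nlinarith
    exact le_of_mul_le_mul_left h5 (by positivity)

/-- A8 with an exceptional set -/
theorem miss_of_row2 (hDc : StDensConj.{0, 0}) (hDf : StDensFix.{0, 0}) (hP : StTypPow.{0, 0}) (hT : StTypTr.{0, 0})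
    (C : ℕ) (ε : ℝ) (hε : 0 < ε) :
    ∃ Q : ℕ, ∀ q, Q ≤ q → ∀ (G T : Type) [Group G] [Group T] [Finite G] [Finite T] [IsSimpleGroup T] (f : G →* T),
      Function.Surjective f → f.ker = center G → QS G → Row2.{0, 0} C q G → H424.Spr.Spr T →
      (∀ x : T, x ≠ 1 → (missX T x : ℝ) ≤ ε * Nat.card T) ∧ (missC T : ℝ) ≤ ε * (Nat.card T : ℝ) ^ 2 := by
  obtain ⟨Q1, h1⟩ := row2_conj hDc hP hT C ε hε
  obtain ⟨Q2, h2⟩ := row2_fix hDf hP hT C ε hε
  refine ⟨max Q1 Q2, fun q hq G T _ _ _ _ _ f hf hker hG hrow hS => ?_⟩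
  exact miss_core f hf hker hG (h1 q ((le_max_left _ _).trans hq) G hrow)
    (fun g => h2 q ((le_max_right _ _).trans hq) G hrow g) hS

end miss

end Cfsg.Agent.H815.BR
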